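import Cfsg.Agent.H80.ExtPrim.Frobenius
import Cfsg.Agent.S0205

/-!
# Irreducible groups all whose vector stabilisers are maximal
-/

open scoped Classical Pointwise
open MulAction

namespace Cfsg.Agent.H80.ExtPrim

universe u v

variable {H : Type u} [Group H] {V : Type v} [CommGroup V] [MulDistribMulAction H V]

/-- Every nonzero vector stabiliser is maximal and the module is irreducible and faithful. -/
structure EP (H : Type u) [Group H] (V : Type v) [CommGroup V] [MulDistribMulAction H V] :
    Prop where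
  coatom : ∀ v : V, v ≠ 1 → IsCoatom (stabilizer H v)
  irr : ∀ W : Subgroup V, (∀ h : H, ∀ w ∈ W, h • w ∈ W) → W = ⊥ ∨ W = ⊤
  faithful : FaithfulSMul H V
  nsol : ¬ Group.IsSolvable H

theorem mem_stab {h : H} {v : V} : h ∈ stabilizer H v ↔ h • v = v := Iff.rfl

/-- A nontrivial normal subgroup fixes no nonzero vector. -/
theorem EP.eq_bot_of_fix (he : EP H V) (R : Subgroup H) (hR : R.Normal) {v : V} (hv : v ≠ 1)
    (hfix : R ≤ stabilizer H v) : R = ⊥ := by
  have := he.faithful
  let W : Subgroup V :=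
    { carrier := {w | ∀ r ∈ R, r • w = w}
      one_mem' := fun r _ => smul_one r
      mul_mem' := fun {a b} ha hb r hr => by rw [smul_mul', ha r hr, hb r hr]
      inv_mem' := fun {a} ha r hr => by rw [smul_inv', ha r hr] }
  rcases he.irr W (fun h w hw r hr => by
    have := hw (h⁻¹ * r * h) (by simpa using hR.conj_mem r hr h⁻¹)
    rw [mul_smul, mul_smul] at this
    exact inv_smul_eq_iff.1 this) with h | h
  · exact absurd (Subgroup.mem_bot.1 (h ▸ (fun r hr => hfix hr : v ∈ W))) hv
  · rw [Subgroup.eq_bot_iff_forall]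
    intro r hr
    refine eq_of_smul_eq_smul fun w : V => ?_
    rw [one_smul]
    exact (h ▸ Subgroup.mem_top w : w ∈ W) r hr

theorem solvable_of_no_subgroup [Finite H] (h : ∀ K : Subgroup H, K = ⊥ ∨ K = ⊤) :
    Group.IsSolvable H := by
  by_cases hall : ∀ x : H, x = 1
  · exact isSolvable_of_comm fun a b => by rw [hall a, hall b]
  · push Not at hall
    obtain ⟨x, hx⟩ := hall
    have htop : Subgroup.zpowers x = ⊤ :=
      (h _).resolve_left (fun e => hx (Subgroup.zpowers_eq_bot.1 e))
    refine isSolvable_of_comm fun a b => ?_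
    obtain ⟨i, rfl⟩ := Subgroup.mem_zpowers_iff.1 (htop ▸ Subgroup.mem_top a)
    obtain ⟨j, rfl⟩ := Subgroup.mem_zpowers_iff.1 (htop ▸ Subgroup.mem_top b)
    exact ((Commute.refl x).zpow_zpow i j).eq

theorem exists_involution [Finite H] (hns : ¬ Group.IsSolvable H) : ∃ t : H, orderOf t = 2 := by
  have : Fact (Nat.Prime 2) := ⟨Nat.prime_two⟩
  refine exists_prime_orderOf_dvd_card' 2 ?_
  by_contra h
  exact hns (Cfsg.Agent.S0205.result (Nat.odd_iff.2 (Nat.two_dvd_ne_zero.1 h)))

theorem smul_sq {t : H} (ht : orderOf t = 2) {X : Type*} [MulAction H X] (w : X) :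
    t • t • w = w := by
  rw [← mul_smul, ← pow_two, ← ht, pow_orderOf_eq_one, one_smul]

/-- In the insoluble case the module has characteristic two. -/
theorem EP.two_dvd [Finite H] [Finite V] (he : EP H V) : 2 ∣ Nat.card V := by
  by_contra hodd
  have := he.faithful
  obtain ⟨t, ht⟩ := exists_involution he.nsol
  obtain ⟨m, hm⟩ : ∃ m : V, t • m ≠ m := by
    by_contra hall
    push Not at hall
    have : t = 1 := eq_of_smul_eq_smul fun w : V => by rw [one_smul, hall]
    rw [this, orderOf_one] at ht
    omega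
  set n := (t • m) * m⁻¹ with hn
  have hn1 : n ≠ 1 := fun e => hm (mul_inv_eq_one.1 e)
  have htn : t • n = n⁻¹ := by
    rw [hn, smul_mul', smul_inv', smul_sq ht, mul_inv_rev, inv_inv]
  have hne : n⁻¹ ≠ n := fun e => by
    have h2 : n ^ 2 = 1 := by rw [pow_two]; nth_rw 1 [← e]; exact inv_mul_cancel n
    have h3 : orderOf n = 2 := orderOf_eq_prime h2 hn1
    exact hodd (h3 ▸ orderOf_dvd_natCard n)
  have hnorm : stabilizer H n ≤ Subgroup.normalizer (stabilizer H n : Set H) :=
    Subgroup.le_normalizer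
  have htN : t ∈ Subgroup.normalizer (stabilizer H n : Set H) := by
    rw [Subgroup.mem_normalizer_iff]
    intro h
    simp only [SetLike.mem_coe, mem_stab, mul_smul]
    have htinv : t⁻¹ • n = n⁻¹ := by
      rw [inv_smul_eq_iff, smul_inv', htn, inv_inv]
    rw [htinv, smul_inv', smul_inv']
    constructor
    · intro e; rw [e, htn, inv_inv]
    · intro e
      have : t • (h • n) = t • n := by rw [htn]; exact inv_eq_iff_eq_inv.1 e
      exact smul_left_cancel t this
  have hlt : stabilizer H n < Subgroup.normalizer (stabilizer H n : Set H) := by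
    refine lt_of_le_of_ne hnorm fun e => hne ?_
    have : t ∈ stabilizer H n := e ▸ htN
    rw [← htn]; exact this
  have htop := (he.coatom n hn1).2 _ hlt
  have hN : (stabilizer H n).Normal := Subgroup.normalizer_eq_top_iff.1 htop
  have hbot := he.eq_bot_of_fix _ hN hn1 le_rfl
  refine he.nsol (solvable_of_no_subgroup fun K => ?_)
  have hc := he.coatom n hn1
  rw [hbot] at hc
  rcases eq_or_lt_of_le (bot_le : ⊥ ≤ K) with h | h
  · exact Or.inl h.symm
  · exact Or.inr (hc.2 K h)

theorem EP.sq_eq_one [Finite H] [Finite V] (he : EP H V) (v : V) : v * v = 1 := by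
  let W : Subgroup V :=
    { carrier := {w | w * w = 1}
      one_mem' := one_mul 1
      mul_mem' := fun {a b} (ha : a * a = 1) (hb : b * b = 1) => by
        change a * b * (a * b) = 1
        rw [mul_mul_mul_comm, ha, hb, one_mul]
      inv_mem' := fun {a} (ha : a * a = 1) => by
        change a⁻¹ * a⁻¹ = 1
        rw [← mul_inv, ha, inv_one] }
  rcases he.irr W (fun h w (hw : w * w = 1) => by
    change h • w * h • w = 1
    rw [← smul_mul', hw, smul_one]) with h | h
  · have : Fact (Nat.Prime 2) := ⟨Nat.prime_two⟩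
    obtain ⟨w, hw⟩ := exists_prime_orderOf_dvd_card' 2 he.two_dvd
    have hmem : w ∈ W := show w * w = 1 by rw [← pow_two, ← hw, pow_orderOf_eq_one]
    rw [h, Subgroup.mem_bot] at hmem
    rw [hmem, orderOf_one] at hw
    omega
  · exact (h ▸ Subgroup.mem_top v : v ∈ W)

/-- An involution fixes a nonzero vector. -/
theorem EP.exists_fixed [Finite H] [Finite V] (he : EP H V) {t : H} (ht : t * t = 1) :
    ∃ v : V, v ≠ 1 ∧ t • v = v := by
  by_cases hall : ∀ w : V, t • w = w
  · have := Finite.one_lt_card_iff_nontrivial.1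
      (lt_of_lt_of_le one_lt_two (Nat.le_of_dvd Nat.card_pos he.two_dvd))
    obtain ⟨w, hw⟩ := exists_ne (1 : V)
    exact ⟨w, hw, hall w⟩
  · push Not at hall
    obtain ⟨w, hw⟩ := hall
    refine ⟨(t • w) * w, fun e => hw ?_, ?_⟩
    · exact mul_right_cancel (e.trans (he.sq_eq_one w).symm)
    · rw [smul_mul', ← mul_smul, ht, one_smul, mul_comm]

end Cfsg.Agent.H80.ExtPrim
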