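import Cfsg.Agent.H80.ExtPrim.NoAbelian

/-!
# The minimal normal subgroup and its factors
-/

open scoped Classical Pointwise
open MulAction

namespace Cfsg.Agent.H80.ExtPrim

universe u v

variable {H : Type u} [Group H]

/-- Conjugate subgroup. -/
def cj (h : H) (K : Subgroup H) : Subgroup H := K.map (MulAut.conj h).toMonoidHom

theorem mem_cj {h x : H} {K : Subgroup H} : x ∈ cj h K ↔ h⁻¹ * x * h ∈ K := by
  simp only [cj, Subgroup.mem_map, MulEquiv.coe_toMonoidHom, MulAut.conj_apply]
  exact ⟨by rintro ⟨y, hy, rfl⟩; simpa [mul_assoc] using hy, fun hx => ⟨_, hx, by group⟩⟩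

theorem cj_mul (g h : H) (K : Subgroup H) : cj g (cj h K) = cj (g * h) K := by
  ext x; simp [mem_cj, mul_assoc]

theorem cj_one (K : Subgroup H) : cj (1 : H) K = K := by ext x; simp [mem_cj]

theorem card_cj (h : H) (K : Subgroup H) : Nat.card (cj h K) = Nat.card K :=
  Subgroup.card_map_of_injective (MulAut.conj h).injective

/-- `T` is a minimal normal subgroup of the normal subgroup `M`, which is minimal normal. -/
structure Fam (M T : Subgroup H) : Prop where
  mN : M.Normal
  mMin : ∀ K : Subgroup H, K.Normal → K ≤ M → K ≠ ⊥ → K = M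
  mCen : Subgroup.centralizer (M : Set H) = ⊥
  le : T ≤ M
  ne : T ≠ ⊥
  norm : ∀ m ∈ M, cj m T = T
  tMin : ∀ K : Subgroup H, K ≤ T → (∀ m ∈ M, cj m K = K) → K ≠ ⊥ → K = T

variable {M T : Subgroup H}

theorem Fam.cj_le (hf : Fam M T) (h : H) : cj h T ≤ M := fun x hx => by
  have := hf.mN.conj_mem _ (hf.le (mem_cj.1 hx)) h
  simpa [mul_assoc] using this

theorem Fam.cj_norm (hf : Fam M T) (h : H) {m : H} (hm : m ∈ M) : cj m (cj h T) = cj h T := by
  rw [cj_mul, show m * h = h * (h⁻¹ * m * h) by group, ← cj_mul,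
    hf.norm _ (by simpa using hf.mN.conj_mem m hm h⁻¹)]

theorem Fam.base (hf : Fam M T) (h : H) : Fam M (cj h T) where
  mN := hf.mN
  mMin := hf.mMin
  mCen := hf.mCen
  le := hf.cj_le h
  ne := fun e => hf.ne (Subgroup.card_eq_one.1 (by rw [← card_cj h, e, Subgroup.card_bot]))
  norm := fun m hm => hf.cj_norm h hm
  tMin := fun K hK hKn hK1 => by
    have h1 : cj h⁻¹ K = T := by
      refine hf.tMin _ (fun x hx => ?_) (fun m hm => ?_) ?_
      · have := mem_cj.1 (hK (mem_cj.1 hx))
        simpa [mul_assoc] using this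
      · rw [cj_mul, show m * h⁻¹ = h⁻¹ * (h * m * h⁻¹) by group, ← cj_mul,
          hKn _ (hf.mN.conj_mem m hm h)]
      · intro e
        refine hK1 ?_
        rw [← cj_one K, ← mul_inv_cancel h, ← cj_mul, e]
        exact Subgroup.map_bot _
    rw [← h1, cj_mul, mul_inv_cancel, cj_one]

theorem Fam.generate (hf : Fam M T) : (⨆ h, cj h T) = M := by
  refine hf.mMin _ ⟨fun x hx g => ?_⟩ (iSup_le hf.cj_le) fun e => hf.ne ?_
  · induction hx using Subgroup.iSup_induction' with
    | hp i y hy =>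
      exact Subgroup.mem_iSup_of_mem (g * i) (mem_cj.2 (by
        have := mem_cj.1 hy
        simpa [mul_assoc] using this))
    | h1 => simp
    | hmul a b _ _ iha ihb =>
      rw [show g * (a * b) * g⁻¹ = g * a * g⁻¹ * (g * b * g⁻¹) by group]
      exact mul_mem iha ihb
  · rw [← le_bot_iff, ← e]
    exact le_iSup_of_le 1 (by rw [cj_one])

/-- Two different factors commute. -/
theorem Fam.commute (hf : Fam M T) {h : H} (hne : cj h T ≠ T) {x y : H} (hx : x ∈ T)
    (hy : y ∈ cj h T) : x * y = y * x := by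
  have hI : T ⊓ cj h T = ⊥ := by
    by_contra hI
    have hInorm : ∀ m ∈ M, cj m (T ⊓ cj h T) = T ⊓ cj h T := fun m hm => by
      rw [cj, Subgroup.map_inf _ _ _ (MulAut.conj m).injective]
      exact congrArg₂ (· ⊓ ·) (hf.norm m hm) (hf.cj_norm h hm)
    have h1 := hf.tMin _ inf_le_left hInorm hI
    have h2 := (hf.base h).tMin _ inf_le_right hInorm hI
    exact hne (h2.symm.trans h1)
  have hmem : x * y * x⁻¹ * y⁻¹ ∈ T ⊓ cj h T := by
    refine ⟨?_, ?_⟩
    · have h1 : x⁻¹ ∈ cj y T := by rw [hf.norm y (hf.cj_le h hy)]; exact T.inv_mem hx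
      have h2 : y * x⁻¹ * y⁻¹ ∈ T := by
        have := hf.norm y (hf.cj_le h hy)
        rw [← this, mem_cj]
        simpa [mul_assoc] using T.inv_mem hx
      simpa [mul_assoc] using T.mul_mem hx h2
    · have h2 : x * y * x⁻¹ ∈ cj h T := by
        rw [← hf.cj_norm h (hf.le hx), mem_cj]
        simpa [mul_assoc] using hy
      exact (cj h T).mul_mem h2 ((cj h T).inv_mem hy)
  rw [hI, Subgroup.mem_bot, mul_inv_eq_one, mul_inv_eq_iff_eq_mul] at hmem
  exact hmem

theorem exists_fam [Finite H] (M : Subgroup H) (hM : M.Normal) (hM1 : M ≠ ⊥)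
    (hmin : ∀ K : Subgroup H, K.Normal → K ≤ M → K ≠ ⊥ → K = M)
    (hcen : Subgroup.centralizer (M : Set H) = ⊥) : ∃ T, Fam M T := by
  obtain ⟨T, hT, hTmin⟩ := Set.Finite.exists_minimal
    (s := {K : Subgroup H | K ≤ M ∧ K ≠ ⊥ ∧ ∀ m ∈ M, cj m K = K}) (Set.toFinite _)
    ⟨M, le_rfl, hM1, fun m hm => by
      ext x
      rw [mem_cj]
      exact ⟨fun h => by simpa [mul_assoc] using hM.conj_mem _ h m,
        fun h => by simpa using hM.conj_mem x h m⁻¹⟩⟩
  exact ⟨T, hM, hmin, hcen, hT.1, hT.2.1, hT.2.2, fun K hK hn hne =>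
    le_antisymm hK (hTmin ⟨hK.trans hT.1, hne, hn⟩ hK)⟩

/-- The factors are simple. -/
theorem Fam.simple (hf : Fam M T) : IsSimpleGroup T := by
  have : Nontrivial T := T.nontrivial_iff_ne_bot.2 hf.ne
  refine ⟨fun L hL => ?_⟩
  by_cases hL1 : L = ⊥
  · exact Or.inl hL1
  right
  have hK : L.map T.subtype = T := by
    refine hf.tMin _ (Subgroup.map_subtype_le L) ?_ ?_
    · intro m hm
      rw [← hf.generate] at hm
      induction hm using Subgroup.iSup_induction' with
      | hp i y hy =>
        by_cases hi : cj i T = T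
        · rw [hi] at hy
          ext x
          rw [mem_cj]
          constructor
          · rintro ⟨z, hz, hzx⟩
            exact ⟨⟨y, hy⟩ * z * ⟨y, hy⟩⁻¹, hL.conj_mem z hz _, by
              simp only [Subgroup.coe_subtype, Subgroup.coe_mul, Subgroup.coe_inv] at *
              rw [hzx]; group⟩
          · rintro ⟨z, hz, rfl⟩
            exact ⟨⟨y, hy⟩⁻¹ * z * ⟨y, hy⟩, by simpa using hL.conj_mem z hz (⟨y, hy⟩⁻¹), rfl⟩
        · ext x
          rw [mem_cj]
          constructor
          · intro hx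
            have hxT := Subgroup.map_subtype_le L hx
            have := hf.commute hi hxT hy
            rw [show y⁻¹ * x * y = x by
              have e : y * (y⁻¹ * x * y) = y⁻¹ * x * y * y := this.symm
              have : x * y = y * (y⁻¹ * x * y) := by group
              rw [e] at this
              exact (mul_right_cancel this).symm] at hx
            exact hx
          · intro hx
            rw [mul_assoc, hf.commute hi (Subgroup.map_subtype_le L hx) hy, inv_mul_cancel_left]
            exact hx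
      | h1 => exact cj_one _
      | hmul a b _ _ iha ihb => rw [← cj_mul, ihb, iha]
    · intro e
      exact hL1 (Subgroup.map_injective T.subtype_injective (by rw [e, Subgroup.map_bot]))
  exact Subgroup.map_injective T.subtype_injective
    (by rw [hK, ← MonoidHom.range_eq_map, Subgroup.range_subtype])

theorem Fam.not_comm (hf : Fam M T) : ¬ ∀ x ∈ T, ∀ y ∈ T, x * y = y * x := by
  intro hc
  refine hf.ne (le_bot_iff.1 (hf.mCen ▸ fun x hx => ?_))
  rw [Subgroup.mem_centralizer_iff]
  intro m hm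
  rw [SetLike.mem_coe, ← hf.generate] at hm
  induction hm using Subgroup.iSup_induction' with
  | hp i y hy =>
    by_cases hi : cj i T = T
    · rw [hi] at hy; exact hc y hy x hx
    · exact (hf.commute hi hx hy).symm
  | h1 => simp
  | hmul a b _ _ iha ihb => rw [mul_assoc, ihb, ← mul_assoc, iha, mul_assoc]

theorem Fam.exists_involution [Finite H] (hf : Fam M T) : ∃ t ∈ T, orderOf t = 2 := by
  have := hf.simple
  obtain ⟨t, ht⟩ := ExtPrim.exists_involution (H := T) fun hs => hf.not_comm fun x hx y hy => by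
    have := IsSimpleGroup.comm_iff_isSolvable.2 hs ⟨x, hx⟩ ⟨y, hy⟩
    exact congrArg Subtype.val this
  exact ⟨t, t.2, by rw [Subgroup.orderOf_coe, ht]⟩

variable {V : Type v} [CommGroup V] [MulDistribMulAction H V]

/-- The centraliser of a vector in a factor. -/
def cD (K : Subgroup H) (v : V) : Subgroup H := K ⊓ stabilizer H v

theorem cj_cD (c : H) (K : Subgroup H) (v : V) : cj c (cD K v) = cD (cj c K) (c • v) := by
  ext x
  simp only [cD, Subgroup.mem_inf, mem_cj, mem_stab]
  refine and_congr_right fun _ => ?_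
  rw [mul_smul, mul_smul, inv_smul_eq_iff]

theorem Fam.exists_conj (he : EP H V) (hf : Fam M T) {v : V} (hv : v ≠ 1) (h : H) :
    ∃ c ∈ stabilizer H v, cj c T = cj h T := by
  have htop : M ⊔ stabilizer H v = ⊤ := by
    by_contra hh
    have hle : M ≤ stabilizer H v := by
      by_contra hM
      exact hh ((he.coatom v hv).2 _ (lt_of_le_of_ne le_sup_right
        fun e => hM (le_sup_left.trans e.ge)))
    exact hf.ne (le_bot_iff.1 (he.eq_bot_of_fix M hf.mN hv hle ▸ hf.le))
  have := hf.mN
  have h1 : h⁻¹ ∈ ((M ⊔ stabilizer H v : Subgroup H) : Set H) := by rw [htop]; trivial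
  rw [Subgroup.normal_mul] at h1
  obtain ⟨m, hm, c, hc, hmc⟩ := h1
  refine ⟨c⁻¹, inv_mem hc, ?_⟩
  have e : h = c⁻¹ * m⁻¹ := by
    have : (m * c)⁻¹ = h := by simp only at hmc; rw [hmc, inv_inv]
    rw [← this, mul_inv_rev]
  rw [e, ← cj_mul, hf.norm _ (inv_mem hm)]

theorem Fam.card_cD (he : EP H V) (hf : Fam M T) {v : V} (hv : v ≠ 1) (h : H) :
    Nat.card (cD (cj h T) v) = Nat.card (cD T v) := by
  obtain ⟨c, hc, hcT⟩ := hf.exists_conj he hv h
  rw [← hcT]
  conv_lhs => rw [← mem_stab.1 hc]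
  rw [← cj_cD, card_cj]

/-- The product form of a stabiliser meeting a factor nontrivially. -/
theorem Fam.mem_of_norm (he : EP H V) (hf : Fam M T) {v : V} (hv : v ≠ 1)
    (hD : cD T v ≠ ⊥) {x : H} (hx : x ∈ T) (hn : cj x (cD T v) = cD T v) : x • v = v := by
  let Q : Subgroup H :=
    { carrier := {m | m ∈ M ∧ ∀ h, cj m (cD (cj h T) v) = cD (cj h T) v}
      one_mem' := ⟨M.one_mem, fun h => cj_one _⟩
      mul_mem' := fun {a b} ha hb => ⟨M.mul_mem ha.1 hb.1, fun h => by
        rw [← cj_mul, hb.2, ha.2]⟩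
      inv_mem' := fun {a} ha => ⟨M.inv_mem ha.1, fun h => by
        conv_lhs => rw [← ha.2 h]
        rw [cj_mul, inv_mul_cancel, cj_one]⟩ }
  have hQM : ∀ m ∈ M, m • v = v → m ∈ Q := fun m hm hmv => ⟨hm, fun h => by
    rw [cj_cD, hmv, hf.cj_norm h hm]⟩
  have hCQ : stabilizer H v ≤ Subgroup.normalizer (Q : Set H) := by
    have key : ∀ c ∈ stabilizer H v, ∀ y ∈ Q, c * y * c⁻¹ ∈ Q := by
      intro c hc y hy
      refine ⟨hf.mN.conj_mem y hy.1 c, fun h => ?_⟩
      have hci : c⁻¹ • v = v := inv_mem hc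
      have e : cD (cj h T) v = cj c (cD (cj (c⁻¹ * h) T) v) := by
        rw [cj_cD, cj_mul, mul_inv_cancel_left, mem_stab.1 hc]
      rw [e, cj_mul, show c * y * c⁻¹ * c = c * y by group, ← cj_mul, hy.2]
    intro c hc
    rw [Subgroup.mem_normalizer_iff]
    exact fun y => ⟨key c hc y, fun h => by simpa [mul_assoc] using key _ (inv_mem hc) _ h⟩
  have hxQ : x ∈ Q := by
    refine ⟨hf.le hx, fun h => ?_⟩
    by_cases hh : cj h T = T
    · rw [hh, hn]
    · ext y
      rw [mem_cj]
      constructor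
      · intro hy
        have := hf.commute hh hx hy.1
        have e : x * (x⁻¹ * y * x) = x⁻¹ * y * x * x := this
        have e2 : x⁻¹ * y * x = y := by
          have : y * x = x * (x⁻¹ * y * x) := by group
          rw [e] at this
          exact (mul_right_cancel this).symm
        rwa [e2] at hy
      · intro hy
        rw [mul_assoc, ← hf.commute hh hx hy.1, inv_mul_cancel_left]
        exact hy
  by_contra hxv
  have htop : stabilizer H v ⊔ Q = ⊤ := (he.coatom v hv).2 _ (lt_of_le_of_ne le_sup_left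
    fun e => hxv (e ▸ le_sup_right (a := stabilizer H v) hxQ : x ∈ stabilizer H v))
  have hMQ : M ≤ Q := by
    intro m hm
    have h1 : m ∈ ((stabilizer H v ⊔ Q : Subgroup H) : Set H) := by rw [htop]; trivial
    rw [Subgroup.coe_mul_of_left_le_normalizer_right _ _ hCQ] at h1
    obtain ⟨c, hc, q, hq, rfl⟩ := h1
    exact Q.mul_mem (hQM c (by simpa using M.mul_mem hm (M.inv_mem hq.1)) hc) hq
  have h1 : cD T v = T := hf.tMin _ inf_le_left (fun m hm => by
    have := (hMQ hm).2 1
    rwa [cj_one] at this) hD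
  exact hxv (inf_eq_left.1 h1 hx)

end Cfsg.Agent.H80.ExtPrim
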