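import Mathlib

/-!
# No simple group has a malnormal proper subgroup of even order (elementary proof)
-/

open scoped Classical Pointwise

namespace Cfsg.Agent.H80.ExtPrim

universe u

variable {T : Type u} [Group T]

theorem not_simple_of_malnormal [Finite T] [IsSimpleGroup T] (D : Subgroup T) (hD : D ≠ ⊤)
    (hmal : ∀ g : T, g ∉ D → ∀ x ∈ D, g⁻¹ * x * g ∈ D → x = 1) {t : T} (ht : t ∈ D)
    (ht1 : t ≠ 1) (ht2 : t * t = 1) : False := by
  have := Fintype.ofFinite T
  -- a nontrivial element has at most one fixed coset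
  have uniq : ∀ {x g h : T}, x ≠ 1 → g⁻¹ * x * g ∈ D → h⁻¹ * x * h ∈ D → g⁻¹ * h ∈ D := by
    intro x g h hx h1 h2
    by_contra hn
    have h3 := hmal _ hn _ h1 (by convert h2 using 1; group)
    exact hx (conj_eq_one_iff.1 (show g⁻¹ * x * g⁻¹⁻¹ = 1 by rw [inv_inv]; exact h3))
  let n := Nat.card (T ⧸ D)
  have hn2 : 2 ≤ n := D.one_lt_index_of_ne_top hD
  have hTcard : Nat.card T = n * Nat.card D := by
    rw [← D.index_mul_card]; rfl
  -- the conjugates of `t`
  let I : Finset T := Finset.univ.image fun g : T => g * t * g⁻¹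
  have hI : ∀ {s}, s ∈ I ↔ ∃ g, g * t * g⁻¹ = s := by
    intro s; simp [I]
  have hconjI : ∀ {s} (g : T), s ∈ I → g * s * g⁻¹ ∈ I := by
    intro s g hs
    obtain ⟨h, rfl⟩ := hI.1 hs
    exact hI.2 ⟨g * h, by group⟩
  have hsq : ∀ {s}, s ∈ I → s * s = 1 := by
    intro s hs
    obtain ⟨g, rfl⟩ := hI.1 hs
    calc g * t * g⁻¹ * (g * t * g⁻¹) = g * (t * t) * g⁻¹ := by group
      _ = 1 := by rw [ht2]; group
  -- the elements fixing a coset
  let F : Finset T := (Finset.univ : Finset T).filter fun x => x ≠ 1 ∧ ∃ g : T, g⁻¹ * x * g ∈ D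
  have hF : F.card = n * (Nat.card D - 1) := by
    have h1 : F.card = Nat.card ((T ⧸ D) × {d : D // d ≠ 1}) := by
      rw [← Nat.card_eq_finsetCard]
      refine (Nat.card_eq_of_bijective (fun q =>
        (⟨q.1.out * (q.2.1 : T) * q.1.out⁻¹, ?_⟩ : F)) ⟨?_, ?_⟩).symm
      · rw [Finset.mem_filter]
        refine ⟨Finset.mem_univ _, fun h => q.2.2 (Subtype.ext (conj_eq_one_iff.1 h)), q.1.out, ?_⟩
        have : q.1.out⁻¹ * (q.1.out * (q.2.1 : T) * q.1.out⁻¹) * q.1.out = q.2.1 := by group
        rw [this]; exact q.2.1.2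
      · intro a b hab
        have hab' : a.1.out * (a.2.1 : T) * a.1.out⁻¹ = b.1.out * (b.2.1 : T) * b.1.out⁻¹ :=
          congrArg Subtype.val hab
        have hne : a.1.out * (a.2.1 : T) * a.1.out⁻¹ ≠ 1 := fun h =>
          a.2.2 (Subtype.ext (conj_eq_one_iff.1 h))
        have h3 := uniq (g := a.1.out) (h := b.1.out) hne
          (by group; exact a.2.1.2)
          (by rw [hab']; group; exact b.2.1.2)
        have he : a.1 = b.1 := by
          rw [← QuotientGroup.out_eq' a.1, ← QuotientGroup.out_eq' b.1]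
          exact QuotientGroup.eq.2 h3
        rw [he] at hab'
        exact Prod.ext he (Subtype.ext (Subtype.ext (mul_left_cancel (mul_right_cancel hab'))))
      · rintro ⟨x, hx⟩
        obtain ⟨-, hx1, g, hg⟩ := Finset.mem_filter.1 hx
        obtain ⟨d, hd⟩ := QuotientGroup.mk_out_eq_mul D g
        have hmem : ((g : T ⧸ D).out)⁻¹ * x * (g : T ⧸ D).out ∈ D := by
          rw [hd]
          have := D.mul_mem (D.mul_mem (D.inv_mem d.2) hg) d.2
          convert this using 1
          group
        exact ⟨⟨(g : T ⧸ D), ⟨⟨_, hmem⟩, fun h => hx1 (conj_eq_one_iff.1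
          (show ((g : T ⧸ D).out)⁻¹ * x * ((g : T ⧸ D).out)⁻¹⁻¹ = 1 by
            rw [inv_inv]; exact congrArg Subtype.val h))⟩⟩, Subtype.ext (by group)⟩
    rw [h1, Nat.card_prod]
    congr 1
    have := Fintype.ofFinite D
    rw [Nat.card_eq_fintype_card, Nat.card_eq_fintype_card, Fintype.card_subtype_compl,
      Fintype.card_subtype_eq]
  -- products of two involutions in `I` with different fixed cosets are fixed point free
  have hfree : ∀ g : T, ∀ s ∈ I, g⁻¹ * s * g ∉ D → g * t * g⁻¹ * s ∉ F := by
    intro g s hs hsD hm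
    obtain ⟨-, hx1, h, hh⟩ := Finset.mem_filter.1 hm
    have hI' : g * t * g⁻¹ ∈ I := hI.2 ⟨g, rfl⟩
    set r := g * t * g⁻¹ with hr
    have hrr := hsq hI'
    have hss := hsq hs
    have hrs : (r * h)⁻¹ * (r * s) * (r * h) ∈ D := by
      have e : (r * h)⁻¹ * (r * s) * (r * h) = (h⁻¹ * (r * s) * h)⁻¹ := by
        have e2 : s⁻¹ = s := inv_eq_of_mul_eq_one_right hss
        calc (r * h)⁻¹ * (r * s) * (r * h) = h⁻¹ * (s * r) * h := by group
          _ = (h⁻¹ * (r * s) * h)⁻¹ := by
            rw [show s * r = s⁻¹ * r⁻¹ by rw [e2, inv_eq_of_mul_eq_one_right hrr]]; group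
      rw [e]; exact D.inv_mem hh
    have h3 : h⁻¹ * (r * h) ∈ D := uniq hx1 hh hrs
    have hr1 : r ≠ 1 := fun e => ht1 (conj_eq_one_iff.1 e)
    have h4 : g⁻¹ * h ∈ D := uniq hr1 (by rw [hr]; group; exact ht) (by rwa [mul_assoc])
    have h5 : h⁻¹ * s * h ∈ D := by
      have e := D.mul_mem (D.inv_mem h3) hh
      convert e using 1
      group
    have h6 := D.mul_mem (D.mul_mem h4 h5) (D.inv_mem h4)
    exact hsD (by convert h6 using 1; group)
  -- exactly one conjugate of `t` in `D`
  have huniq : ∀ s ∈ I, s ∈ D → s = t := by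
    by_contra hcon
    push Not at hcon
    obtain ⟨s₀, hs₀, hs₀D, hs₀t⟩ := hcon
    let J : Finset T := I.filter (· ∉ D)
    have htI : t ∈ I := hI.2 ⟨1, by simp⟩
    have hJ : 2 * (n - 1) ≤ J.card := by
      let Q := {q : T ⧸ D // q ≠ ((1 : T) : T ⧸ D)}
      have hinj : Function.Injective (fun z : Q × Bool =>
          z.1.1.out * (if z.2 then t else s₀) * z.1.1.out⁻¹) := by
        intro a b hab
        have hmem : ∀ z : Bool, (if z then t else s₀) ∈ D := fun z => by split <;> assumption
        have hne : ∀ z : Bool, (if z then t else s₀) ≠ 1 := by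
          intro z; split
          · exact ht1
          · obtain ⟨g, hg⟩ := hI.1 hs₀
            rw [← hg]; exact fun e => ht1 (conj_eq_one_iff.1 e)
        dsimp only at hab
        have h3 := uniq (g := a.1.1.out) (h := b.1.1.out)
          (x := a.1.1.out * (if a.2 then t else s₀) * a.1.1.out⁻¹)
          (fun e => hne a.2 (conj_eq_one_iff.1 e)) (by group; exact hmem a.2)
          (by rw [hab]; group; exact hmem b.2)
        have he : a.1.1 = b.1.1 := by
          rw [← QuotientGroup.out_eq' a.1.1, ← QuotientGroup.out_eq' b.1.1]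
          exact QuotientGroup.eq.2 h3
        rw [he] at hab
        have hb := mul_left_cancel (mul_right_cancel hab)
        refine Prod.ext (Subtype.ext he) ?_
        rcases a with ⟨_, _ | _⟩ <;> rcases b with ⟨_, _ | _⟩ <;> simp_all
      have hsub : ∀ z : Q × Bool, z.1.1.out * (if z.2 then t else s₀) * z.1.1.out⁻¹ ∈ J := by
        intro z
        rw [Finset.mem_filter]
        refine ⟨hconjI _ (by split <;> assumption), fun hm => z.1.2 ?_⟩
        have hne : z.1.1.out * (if z.2 then t else s₀) * z.1.1.out⁻¹ ≠ 1 := by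
          intro e
          have := conj_eq_one_iff.1 e
          split at this
          · exact ht1 this
          · obtain ⟨g, hg⟩ := hI.1 hs₀
            rw [← hg] at this; exact ht1 (conj_eq_one_iff.1 this)
        have h3 := uniq (g := (1 : T)) (h := z.1.1.out) hne (by simpa using hm)
          (by group; split <;> assumption)
        rw [← QuotientGroup.out_eq' z.1.1]
        exact (QuotientGroup.eq.2 h3).symm
      have := Fintype.card_le_of_injective (fun z => (⟨_, hsub z⟩ : J))
        (fun a b h => hinj (congrArg Subtype.val h))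
      rw [Fintype.card_prod, Fintype.card_bool, Fintype.card_coe, Fintype.card_subtype_compl,
        Fintype.card_subtype_eq, ← Nat.card_eq_fintype_card] at this
      omega
    have hsub : insert 1 (F ∪ J.image (fun s => t * s)) ⊆ Finset.univ := Finset.subset_univ _
    have hd : Disjoint F (J.image (fun s => t * s)) := by
      rw [Finset.disjoint_left]
      intro y hy hy'
      obtain ⟨s, hs, rfl⟩ := Finset.mem_image.1 hy'
      rw [Finset.mem_filter] at hs
      exact hfree 1 s hs.1 (by simpa using hs.2) (by simpa using hy)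
    have h1 : (1 : T) ∉ F ∪ J.image (fun s => t * s) := by
      simp only [Finset.mem_union, Finset.mem_filter, F, Finset.mem_image, not_or, not_exists,
        not_and]
      refine ⟨fun _ h => absurd rfl h, fun s hs e => ?_⟩
      exact (Finset.mem_filter.1 hs).2 (by rw [eq_inv_of_mul_eq_one_right e]; exact D.inv_mem ht)
    have := Finset.card_le_card hsub
    rw [Finset.card_insert_of_notMem h1, Finset.card_union_of_disjoint hd,
      Finset.card_image_of_injective _ (mul_right_injective t), hF, Finset.card_univ,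
      ← Nat.card_eq_fintype_card, hTcard] at this
    have hD1 : 1 ≤ Nat.card D := Nat.card_pos
    have : n * (Nat.card D - 1) + n = n * Nat.card D := by
      rw [← Nat.mul_succ]; congr 1; omega
    omega
  have hcen : ∀ d ∈ D, d * t * d⁻¹ = t := fun d hd =>
    huniq _ (hI.2 ⟨d, rfl⟩) (D.mul_mem (D.mul_mem hd ht) (D.inv_mem hd))
  have hIcard : n ≤ I.card := by
    rw [show n = Fintype.card (T ⧸ D) from Nat.card_eq_fintype_card, ← Fintype.card_coe I]
    refine Fintype.card_le_of_injective
      (fun q => (⟨q.out * t * q.out⁻¹, hI.2 ⟨_, rfl⟩⟩ : I)) fun a b h => ?_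
    have h' : a.out * t * a.out⁻¹ = b.out * t * b.out⁻¹ := congrArg Subtype.val h
    rw [← QuotientGroup.out_eq' a, ← QuotientGroup.out_eq' b]
    refine QuotientGroup.eq.2 (uniq (x := a.out * t * a.out⁻¹)
      (fun e => ht1 (conj_eq_one_iff.1 e)) (by group; exact ht) (by rw [h']; group; exact ht))
  -- all `r * I` coincide with the set of fixed point free elements
  have hK : ∀ r ∈ I, I.image (fun s => r * s) = Finset.univ \ F := by
    intro r hr
    refine Finset.eq_of_subset_of_card_le (fun y hy => ?_) ?_
    · obtain ⟨s, hs, rfl⟩ := Finset.mem_image.1 hy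
      obtain ⟨g, rfl⟩ := hI.1 hr
      rw [Finset.mem_sdiff]
      refine ⟨Finset.mem_univ _, ?_⟩
      by_cases hsD : g⁻¹ * s * g ∈ D
      · have := huniq _ (by simpa using hconjI g⁻¹ hs) hsD
        have e : s = g * t * g⁻¹ := by rw [← this]; group
        rw [e, hsq hr]
        simp [F]
      · exact hfree g s hs hsD
    · rw [Finset.card_image_of_injective _ (mul_right_injective r),
        Finset.card_sdiff_of_subset (Finset.subset_univ _), hF, Finset.card_univ,
        ← Nat.card_eq_fintype_card, hTcard]
      have hD1 : 1 ≤ Nat.card D := Nat.card_pos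
      have : n * (Nat.card D - 1) + n = n * Nat.card D := by
        rw [← Nat.mul_succ]; congr 1; omega
      omega
  have htI : t ∈ I := hI.2 ⟨1, by simp⟩
  have hKmem : ∀ {y}, y ∈ I.image (fun s => t * s) ↔ ∀ g : T, y = 1 ∨ g⁻¹ * y * g ∉ D := by
    intro y
    rw [hK t htI]
    simp [F, or_iff_not_imp_left]
    exact ⟨fun h g hy => h hy g, fun h hy g => h g hy⟩
  let K : Subgroup T :=
    { carrier := {y | y ∈ I.image (fun s => t * s)}
      one_mem' := Finset.mem_image.2 ⟨t, htI, ht2⟩
      inv_mem' := by
        intro y hy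
        rw [Set.mem_setOf_eq, hKmem] at *
        intro g
        rcases hy g with h | h
        · exact Or.inl (by rw [h, inv_one])
        · exact Or.inr fun e => h (by have := D.inv_mem e; convert this using 1; group)
      mul_mem' := by
        intro y z hy hz
        obtain ⟨s, hs, rfl⟩ := Finset.mem_image.1 hy
        obtain ⟨s', hs', rfl⟩ := Finset.mem_image.1 hz
        have h1 : t * s * t ∈ I := by
          have := hconjI t hs
          rwa [inv_eq_of_mul_eq_one_right ht2] at this
        have : t * s * (t * s') ∈ I.image (fun w => (t * s * t) * w) :=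
          Finset.mem_image.2 ⟨s', hs', by group⟩
        rw [hK _ h1, ← hK t htI] at this
        exact this }
  have hKn : K.Normal := ⟨fun y hy g => by
    change g * y * g⁻¹ ∈ I.image (fun s => t * s)
    rw [hKmem]
    intro h
    rcases (hKmem.1 hy) (g⁻¹ * h) with e | e
    · exact Or.inl (by rw [e]; group)
    · exact Or.inr fun e' => e (by convert e' using 1; group)⟩
  rcases hKn.eq_bot_or_eq_top with h | h
  · have h2 : I.card ≤ 1 := by
      rw [Finset.card_le_one]
      intro a ha b hb
      have e1 : t * a ∈ K := Finset.mem_image.2 ⟨a, ha, rfl⟩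
      have e2 : t * b ∈ K := Finset.mem_image.2 ⟨b, hb, rfl⟩
      rw [h, Subgroup.mem_bot] at e1 e2
      exact mul_left_cancel (e1.trans e2.symm)
    omega
  · have : t ∈ K := h ▸ Subgroup.mem_top t
    rcases hKmem.1 this 1 with e | e
    · exact ht1 e
    · exact e (by simpa using ht)

end Cfsg.Agent.H80.ExtPrim
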