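import Cfsg.Agent.H80.ExtPrim.Family

/-!
# An insoluble group with maximal vector stabilisers is almost simple
-/

open scoped Classical Pointwise commutatorElement
open MulAction

namespace Cfsg.Agent.H80.ExtPrim

universe u v

variable {H : Type u} [Group H] [Finite H] {V : Type v} [CommGroup V] [Finite V]
  [MulDistribMulAction H V] {M T : Subgroup H}

theorem EP.exists_minimal (he : EP H V) : ∃ M : Subgroup H, M.Normal ∧ M ≠ ⊥ ∧
    (∀ K : Subgroup H, K.Normal → K ≤ M → K ≠ ⊥ → K = M) ∧
      Subgroup.centralizer (M : Set H) = ⊥ := by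
  have : Nontrivial H := not_subsingleton_iff_nontrivial.1 fun h =>
    he.nsol (isSolvable_of_comm fun a b => Subsingleton.elim _ _)
  obtain ⟨M, hM, hMmin⟩ := Set.Finite.exists_minimal
    (s := {K : Subgroup H | K.Normal ∧ K ≠ ⊥}) (Set.toFinite _)
    ⟨⊤, inferInstance, top_ne_bot⟩
  have hmin : ∀ K : Subgroup H, K.Normal → K ≤ M → K ≠ ⊥ → K = M := fun K hK hle hne =>
    le_antisymm hle (hMmin ⟨hK, hne⟩ hle)
  refine ⟨M, hM.1, hM.2, hmin, ?_⟩
  have hMN := hM.1
  by_contra hR
  have hRn : (Subgroup.centralizer (M : Set H)).Normal := Subgroup.normal_centralizer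
  obtain ⟨t, htM, ht⟩ : ∃ t ∈ M, orderOf t = 2 := by
    by_cases hs : Group.IsSolvable M
    · exfalso
      have : Nontrivial M := M.nontrivial_iff_ne_bot.2 hM.2
      have hlt := Group.IsSolvable.commutator_lt_top_of_nontrivial (G := M)
      have hch : ((commutator M).map M.subtype).Normal :=
        ConjAct.normal_of_characteristic_of_normal
      by_cases hb : commutator M = ⊥
      · refine hM.2 (he.eq_bot_of_comm M hMN fun x hx y hy => ?_)
        have h1 : ⁅(⟨x, hx⟩ : M), ⟨y, hy⟩⁆ ∈ commutator M := by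
          rw [commutator_def]
          exact Subgroup.commutator_mem_commutator (Subgroup.mem_top _) (Subgroup.mem_top _)
        rw [hb, Subgroup.mem_bot, commutatorElement_eq_one_iff_mul_comm] at h1
        exact congrArg Subtype.val h1
      · have h1 := hmin _ hch (Subgroup.map_subtype_le _) (fun e => hb
          (Subgroup.map_injective M.subtype_injective (by rw [e, Subgroup.map_bot])))
        exact hlt.ne (Subgroup.map_injective M.subtype_injective
          (by rw [h1, ← MonoidHom.range_eq_map, Subgroup.range_subtype]))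
    · obtain ⟨t, ht⟩ := exists_involution hs
      exact ⟨t, t.2, by rw [Subgroup.orderOf_coe, ht]⟩
  obtain ⟨v, hv, hvt⟩ := he.exists_fixed (t := t) (by rw [← pow_two, ← ht, pow_orderOf_eq_one])
  set R := Subgroup.centralizer (M : Set H)
  have htop : R ⊔ stabilizer H v = ⊤ := by
    by_contra hh
    have hle : R ≤ stabilizer H v := by
      by_contra hR'
      exact hh ((he.coatom v hv).2 _ (lt_of_le_of_ne le_sup_right
        fun e => hR' (le_sup_left.trans e.ge)))
    exact hR (he.eq_bot_of_fix R hRn hv hle)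
  have hIn : (M ⊓ stabilizer H v).Normal := by
    rw [← Subgroup.normalizer_eq_top_iff, eq_top_iff, ← htop, sup_le_iff]
    have key : ∀ c ∈ stabilizer H v, ∀ y ∈ M ⊓ stabilizer H v,
        c * y * c⁻¹ ∈ M ⊓ stabilizer H v := fun c hc y hy =>
      ⟨hMN.conj_mem y hy.1 c, Subgroup.mul_mem _ (Subgroup.mul_mem _ hc hy.2) (Subgroup.inv_mem _ hc)⟩
    have key2 : ∀ r ∈ R, ∀ y ∈ M ⊓ stabilizer H v, r * y * r⁻¹ ∈ M ⊓ stabilizer H v :=
      fun r hr y hy => by
        rw [← (Subgroup.mem_centralizer_iff.1 hr y hy.1 : y * r = r * y), mul_inv_cancel_right]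
        exact hy
    exact ⟨fun r hr => Subgroup.mem_normalizer_iff.2 fun y => ⟨key2 r hr y, fun h => by
        simpa [mul_assoc] using key2 _ (inv_mem hr) _ h⟩,
      fun c hc => Subgroup.mem_normalizer_iff.2 fun y => ⟨key c hc y, fun h => by
        simpa [mul_assoc] using key _ (inv_mem hc) _ h⟩⟩
  have hbot := he.eq_bot_of_fix _ hIn hv inf_le_right
  have : t ∈ M ⊓ stabilizer H v := ⟨htM, hvt⟩
  rw [hbot, Subgroup.mem_bot] at this
  rw [this, orderOf_one] at ht
  omega

/-- The maximality of `|C_T(v)|` kills the mixed part. -/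
theorem Fam.key (he : EP H V) (hf : Fam M T) {v : V} (hv : v ≠ 1)
    (heven : 2 ∣ Nat.card (cD T v))
    (hmax : ∀ w : V, w ≠ 1 → 2 ∣ Nat.card (cD T w) → Nat.card (cD T w) ≤ Nat.card (cD T v))
    {h : H} (hh : cj h T ≠ T) {x g1 g : H} (hx : x ∈ T) (hg1 : g1 ∈ T) (hg : g ∈ cj h T)
    (hgv : g • v ≠ v) (hfix : x • (v * (g1 * g) • v) = v * (g1 * g) • v) :
    x • v = v ∧ x • g1 • v = g1 • v := by
  set u := x • v * v with hu
  have hu2 : u = g • (x • g1 • v * g1 • v) := by
    have e1 : x • g • g1 • v = g • x • g1 • v := by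
      rw [← mul_smul x g, hf.commute hh hx hg, mul_smul]
    rw [smul_mul', hf.commute hh hg1 hg, mul_smul, e1] at hfix
    rw [hu, smul_mul']
    calc x • v * v = (x • v * g • x • g1 • v) * ((g • x • g1 • v) * v) := by
          rw [mul_assoc, ← mul_assoc (g • x • g1 • v), he.sq_eq_one, one_mul]
      _ = (v * g • g1 • v) * ((g • x • g1 • v) * v) := by rw [hfix]
      _ = (v * v) * (g • x • g1 • v * g • g1 • v) := by
          simp only [mul_assoc, mul_comm, mul_left_comm]
      _ = _ := by rw [he.sq_eq_one, one_mul]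
  have hfixS : ∀ y ∈ cD (cj h T) v, ∀ k ∈ T, y • k • v = k • v := fun y hy k hk => by
    rw [← mul_smul, ← hf.commute hh hk hy.1, mul_smul, mem_stab.1 hy.2]
  have hu1 : u = 1 := by
    by_contra hu1
    have hle : cD (cj h T) v ≤ cD (cj h T) u := fun y hy => ⟨hy.1, by
      have h1 := hfixS y hy x hx
      have h2 := mem_stab.1 hy.2
      change y • u = u
      rw [hu, smul_mul', h1, h2]⟩
    have hle2 : cj g (cD (cj h T) v) ≤ cD (cj h T) u := by
      rintro _ ⟨y, hy, rfl⟩
      refine ⟨?_, ?_⟩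
      · exact Subgroup.mul_mem _ (Subgroup.mul_mem _ hg hy.1) (Subgroup.inv_mem _ hg)
      · change (g * y * g⁻¹) • u = u
        rw [mul_smul, mul_smul, hu2, inv_smul_smul]
        congr 1
        rw [smul_mul', ← mul_smul x g1, hfixS y hy _ (T.mul_mem hx hg1), hfixS y hy g1 hg1]
    have hDv : cD T v ≠ ⊥ := fun e => by rw [e, Subgroup.card_bot] at heven; omega
    have h2 : 2 ∣ Nat.card (cD T u) := by
      rw [← hf.card_cD he hu1 h]
      rw [← hf.card_cD he hv h] at heven
      exact heven.trans (Subgroup.card_dvd_of_le hle)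
    have hcard : Nat.card (cD (cj h T) u) ≤ Nat.card (cD (cj h T) v) := by
      rw [hf.card_cD he hu1 h, hf.card_cD he hv h]
      exact hmax u hu1 h2
    have heq : cD (cj h T) v = cD (cj h T) u := Subgroup.eq_of_le_of_card_ge hle hcard
    have heq2 : cj g (cD (cj h T) v) = cD (cj h T) u :=
      Subgroup.eq_of_le_of_card_ge hle2 (by rwa [card_cj])
    have hne : cD (cj h T) v ≠ ⊥ := fun e => hDv (Subgroup.card_eq_one.1
      (by rw [← hf.card_cD he hv h, e, Subgroup.card_bot]))
    exact hgv ((hf.base h).mem_of_norm he hv hne hg (heq2.trans heq.symm))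
  have h1 : x • v = v := by
    have := congrArg (· * v) hu1
    simpa [hu, mul_assoc, he.sq_eq_one] using this
  refine ⟨h1, ?_⟩
  have h2 : x • g1 • v * g1 • v = 1 := smul_left_cancel g
    (by rw [← hu2, hu1, smul_one])
  have := congrArg (· * g1 • v) h2
  simpa [mul_assoc, he.sq_eq_one] using this

theorem Fam.eq (he : EP H V) (hf : Fam M T) : ∀ h : H, cj h T = T := by
  by_contra hall
  push Not at hall
  obtain ⟨h, hh⟩ := hall
  have := hf.simple
  have := Fintype.ofFinite V
  let s : Finset V := Finset.univ.filter fun w => w ≠ 1 ∧ 2 ∣ Nat.card (cD T w)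
  obtain ⟨t0, ht0, ht2⟩ := hf.exists_involution
  obtain ⟨w0, hw0, hw0t⟩ := he.exists_fixed (t := t0)
    (by rw [← pow_two, ← ht2, pow_orderOf_eq_one])
  have hs : s.Nonempty := ⟨w0, by
    rw [Finset.mem_filter]
    refine ⟨Finset.mem_univ _, hw0, ?_⟩
    rw [← ht2]
    exact Subgroup.orderOf_dvd_natCard _ ⟨ht0, hw0t⟩⟩
  obtain ⟨v, hvs, hmax'⟩ := s.exists_max_image (fun w => Nat.card (cD T w)) hs
  rw [Finset.mem_filter] at hvs
  obtain ⟨-, hv, heven⟩ := hvs
  have hmax : ∀ w : V, w ≠ 1 → 2 ∣ Nat.card (cD T w) → Nat.card (cD T w) ≤ Nat.card (cD T v) :=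
    fun w hw hw2 => hmax' w (Finset.mem_filter.2 ⟨Finset.mem_univ _, hw, hw2⟩)
  have hDv : cD T v ≠ ⊥ := fun e => by rw [e, Subgroup.card_bot] at heven; omega
  -- an involution of the second factor moving `v`
  obtain ⟨s0, hs0, hs02, hs0v⟩ : ∃ s0 ∈ cj h T, orderOf s0 = 2 ∧ s0 • v ≠ v := by
    by_contra hno
    push Not at hno
    let I : Subgroup H := Subgroup.closure {y | y ∈ cj h T ∧ orderOf y = 2}
    have hI : I = cj h T := by
      refine (hf.base h).tMin I ((Subgroup.closure_le _).2 fun y hy => hy.1) (fun m hm => ?_) ?_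
      · rw [show cj m I = Subgroup.closure ((MulAut.conj m).toMonoidHom '' {y | y ∈ cj h T ∧
          orderOf y = 2}) from MonoidHom.map_closure _ _]
        congr 1
        ext y
        simp only [Set.mem_image, Set.mem_setOf_eq, MulEquiv.coe_toMonoidHom]
        constructor
        · rintro ⟨z, ⟨hz, hz2⟩, rfl⟩
          refine ⟨?_, by rw [MulEquiv.orderOf_eq, hz2]⟩
          rw [← hf.cj_norm h hm]
          exact ⟨z, hz, rfl⟩
        · rintro ⟨hy, hy2⟩
          rw [← hf.cj_norm h hm] at hy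
          obtain ⟨z, hz, rfl⟩ := hy
          exact ⟨z, ⟨hz, by rwa [MulEquiv.coe_toMonoidHom, MulEquiv.orderOf_eq] at hy2⟩, rfl⟩
      · obtain ⟨t1, ht1, ht12⟩ := (hf.base h).exists_involution
        intro e
        have : t1 ∈ I := Subgroup.subset_closure ⟨ht1, ht12⟩
        rw [e, Subgroup.mem_bot] at this
        rw [this, orderOf_one] at ht12
        omega
    have hle : cj h T ≤ stabilizer H v := hI ▸ (Subgroup.closure_le _).2 fun y hy => hno y hy.1 hy.2
    have hTv : cD T v = T := Subgroup.eq_of_le_of_card_ge inf_le_left (by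
      rw [← hf.card_cD he hv h, show cD (cj h T) v = cj h T from inf_eq_left.2 hle, card_cj])
    have hM : M ≤ stabilizer H v := by
      rw [← hf.generate]
      refine iSup_le fun i => inf_eq_left.1 (Subgroup.eq_of_le_of_card_ge inf_le_left ?_)
      change _ ≤ Nat.card (cD (cj i T) v)
      rw [hf.card_cD he hv i, hTv, card_cj]
    exact hf.ne (le_bot_iff.1 (he.eq_bot_of_fix M hf.mN hv hM ▸ hf.le))
  -- malnormality
  have hmal : ∀ g1 ∈ T, g1 • v ≠ v → ∀ x ∈ T, x • v = v → x • g1 • v = g1 • v → x = 1 := by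
    intro g1 hg1 hg1v x hx hxv hxg
    by_contra hx1
    set a := v * (g1 * s0) • v with ha
    have hs0s : s0 • s0 • v = v := smul_sq hs02 v
    have hg1s : s0 * g1 = g1 * s0 := (hf.commute hh hg1 hs0).symm
    have ha1 : a ≠ 1 := by
      intro e
      have hw : (g1 * s0) • v = v := by
        have := congrArg (v * ·) e
        simpa [ha, ← mul_assoc, he.sq_eq_one] using this
      have hw' : g1 * s0 ∈ M := M.mul_mem (hf.le hg1) (hf.cj_le h hs0)
      refine hg1v (hf.mem_of_norm he hv hDv hg1 ?_)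
      have h1 : cj (g1 * s0) (cD T v) = cD T v := by rw [cj_cD, hw, hf.norm _ hw']
      have h2 : cj s0 (cD T v) = cD T v := by
        ext y
        rw [mem_cj]
        constructor
        · intro hy
          have := hf.commute hh hy.1 hs0
          have e2 : y = s0⁻¹ * y * s0 := by
            have e3 : y * s0 = s0 * (s0⁻¹ * y * s0) := by group
            rw [← this] at e3
            exact mul_right_cancel e3
          rwa [← e2] at hy
        · intro hy
          rw [mul_assoc, hf.commute hh hy.1 hs0, inv_mul_cancel_left]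
          exact hy
      rw [← cj_mul, h2] at h1
      exact h1
    have hxa : x ∈ cD T a := ⟨hx, by
      change x • a = a
      rw [ha, smul_mul', hxv]
      congr 1
      rw [← hg1s, mul_smul, ← mul_smul x s0, hf.commute hh hx hs0, mul_smul, hxg]⟩
    have hDa : cD (cj h T) a ≠ ⊥ := fun e => by
      have h1 := Subgroup.card_eq_one.1 ((hf.card_cD he ha1 h).symm.trans
        (by rw [e, Subgroup.card_bot]))
      rw [h1, Subgroup.mem_bot] at hxa
      exact hx1 hxa
    -- `s0` normalises the centraliser of `a`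
    have hkeyS : ∀ y ∈ cD (cj h T) a, y • v = v ∧ y • s0 • v = s0 • v := by
      intro y hy
      have hne : cj h⁻¹ (cj h T) ≠ cj h T := by
        rw [cj_mul, inv_mul_cancel, cj_one]; exact fun e => hh e.symm
      refine (hf.base h).key he hv ?_ ?_ (h := h⁻¹) hne hy.1 hs0
        (g := g1) ?_ hg1v ?_
      · rwa [hf.card_cD he hv h]
      · intro w hw hw2
        rw [hf.card_cD he hw h] at hw2 ⊢
        rw [hf.card_cD he hv h]
        exact hmax w hw hw2
      · rwa [cj_mul, inv_mul_cancel, cj_one]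
      · rw [hg1s]; exact hy.2
    have hback : ∀ y ∈ cj h T, y • v = v → y • s0 • v = s0 • v → y • a = a := by
      intro y hy h1 h2
      rw [ha, smul_mul', h1]
      congr 1
      rw [← mul_smul, ← mul_assoc, ← hf.commute hh hg1 hy, mul_assoc, mul_smul, mul_smul, h2,
        ← mul_smul]
    have hnorm : cj s0 (cD (cj h T) a) = cD (cj h T) a := by
      refine Subgroup.eq_of_le_of_card_ge ?_ (by rw [card_cj])
      rintro _ ⟨y, hy, rfl⟩
      obtain ⟨hy1, hy2⟩ := hkeyS y hy
      have hmem : s0 * y * s0⁻¹ ∈ cj h T :=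
        Subgroup.mul_mem _ (Subgroup.mul_mem _ hs0 hy.1) (Subgroup.inv_mem _ hs0)
      have hi : s0⁻¹ • v = s0 • v := inv_smul_eq_iff.2 hs0s.symm
      refine ⟨hmem, hback _ hmem ?_ ?_⟩
      · change (s0 * y * s0⁻¹) • v = v
        rw [mul_smul, mul_smul, hi, hy2, hs0s]
      · change (s0 * y * s0⁻¹) • s0 • v = s0 • v
        rw [mul_smul, mul_smul, inv_smul_smul, hy1]
    have h1 := (hf.base h).mem_of_norm he ha1 hDa hs0 hnorm
    exact hs0v (hkeyS s0 ⟨hs0, h1⟩).1
  -- contradiction
  obtain ⟨⟨t, ht⟩, ht3⟩ := (exists_prime_orderOf_dvd_card' 2 heven :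
    ∃ x : cD T v, orderOf x = 2)
  have : (cD T v).subgroupOf T ≠ ⊤ := fun e => by
    have hle : T ≤ cD T v := Subgroup.subgroupOf_eq_top.1 e
    have hM : M ≤ stabilizer H v := by
      rw [← hf.generate]
      refine iSup_le fun i => inf_eq_left.1 (Subgroup.eq_of_le_of_card_ge inf_le_left ?_)
      change _ ≤ Nat.card (cD (cj i T) v)
      rw [hf.card_cD he hv i, show cD T v = T from le_antisymm inf_le_left hle, card_cj]
    exact hf.ne (le_bot_iff.1 (he.eq_bot_of_fix M hf.mN hv hM ▸ hf.le))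
  refine not_simple_of_malnormal ((cD T v).subgroupOf T) this (fun g hg x hx hgx => ?_)
    (t := ⟨t, ht.1⟩) (Subgroup.mem_subgroupOf.2 ht) ?_ ?_
  · rw [Subgroup.mem_subgroupOf] at hg hx hgx
    refine Subtype.ext (hmal g g.2 (fun e => hg ⟨g.2, e⟩) x x.2 hx.2 ?_)
    have : ((g⁻¹ * ⟨x, x.2⟩ * g : T) : H) • v = v := hgx.2
    simp only [Subgroup.coe_mul, Subgroup.coe_inv, mul_smul] at this
    exact inv_smul_eq_iff.1 this
  · intro e
    have : t = 1 := congrArg Subtype.val e
    rw [← Subgroup.orderOf_coe] at ht3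
    simp only [this, orderOf_one] at ht3
    omega
  · have : (⟨t, ht⟩ : cD T v) ^ 2 = 1 := ht3 ▸ pow_orderOf_eq_one _
    exact Subtype.ext (by
      have := congrArg Subtype.val this
      simpa [pow_two] using this)

theorem EP.almost_simple (he : EP H V) : ∃ T : Subgroup H, T.Normal ∧ IsSimpleGroup T ∧
    ¬ IsMulCommutative T ∧ Subgroup.centralizer (T : Set H) = ⊥ := by
  obtain ⟨M, hM, hM1, hmin, hcen⟩ := he.exists_minimal
  obtain ⟨T, hf⟩ := exists_fam M hM hM1 hmin hcen
  have hall := hf.eq he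
  have hTM : T = M := by
    rw [← hf.generate]
    exact le_antisymm (le_iSup_of_le 1 (by rw [cj_one])) (iSup_le fun i => (hall i).le)
  refine ⟨T, hTM ▸ hM, hf.simple, fun hc => hf.not_comm fun x hx y hy => ?_, hTM ▸ hcen⟩
  exact congrArg Subtype.val (hc.is_comm.comm (⟨x, hx⟩ : T) ⟨y, hy⟩)

end Cfsg.Agent.H80.ExtPrim
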