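import Cfsg.Agent.H80.ExtPrim.Basic

/-!
# No abelian minimal normal subgroup
-/

open scoped Classical Pointwise
open MulAction

namespace Cfsg.Agent.H80.ExtPrim

universe u v

variable {H : Type u} [Group H] {V : Type v} [CommGroup V] [MulDistribMulAction H V]

/-- The product over an orbit segment of an element of order `r` is a fixed vector. -/
theorem smul_prod_pow (y : H) {r : ℕ} (hy : y ^ r = 1) (w : V) :
    y • (∏ i ∈ Finset.range r, y ^ i • w) = ∏ i ∈ Finset.range r, y ^ i • w := by
  rw [Finset.smul_prod']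
  simp only [← mul_smul, ← pow_succ']
  have h1 := Finset.prod_range_succ' (fun i => y ^ i • w) r
  have h2 := Finset.prod_range_succ (fun i => y ^ i • w) r
  rw [h2, pow_zero, hy] at h1
  exact (mul_right_cancel h1).symm

/-- A semiregular commuting pair of order `r` forces exponent `r`. -/
theorem pow_eq_one_of_pair {a b : H} (hab : Commute a b) {r : ℕ} (hr : r.Prime)
    (ha : orderOf a = r) (hb : b ^ r = 1) (hb' : b ∉ Subgroup.zpowers a)
    (hsemi : ∀ x ∈ Subgroup.closure {a, b}, x ≠ 1 → ∀ w : V, x • w = w → w = 1) (w : V) :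
    w ^ r = 1 := by
  have hma : a ∈ Subgroup.closure ({a, b} : Set H) := Subgroup.subset_closure (by simp)
  have hmb : b ∈ Subgroup.closure ({a, b} : Set H) := Subgroup.subset_closure (by simp)
  have ha' : a ^ r = 1 := ha ▸ pow_orderOf_eq_one a
  have kill : ∀ x ∈ Subgroup.closure ({a, b} : Set H), x ≠ 1 → x ^ r = 1 →
      ∀ u : V, ∏ i ∈ Finset.range r, x ^ i • u = 1 := fun x hx hx1 hxr u =>
    hsemi x hx hx1 _ (smul_prod_pow x hxr u)
  have h1 : ∀ j, ∏ i ∈ Finset.range r, (a ^ j * b) ^ i • w = 1 := by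
    intro j
    refine kill _ (mul_mem (pow_mem hma j) hmb) (fun e => hb' ?_) ?_ w
    · rw [eq_inv_of_mul_eq_one_right e]
      exact inv_mem (pow_mem (Subgroup.mem_zpowers a) j)
    · rw [(hab.pow_left j).mul_pow, hb, ← pow_mul, mul_comm j r, pow_mul, ha', one_pow, one_mul]
  have h2 : ∏ i ∈ Finset.range r, ∏ j ∈ Finset.range r, (a ^ j * b) ^ i • w = 1 := by
    rw [Finset.prod_comm]
    exact Finset.prod_eq_one fun j _ => h1 j
  rw [Finset.prod_eq_single_of_mem 0 (Finset.mem_range.2 hr.pos)] at h2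
  · simpa using h2
  · intro i hi hi0
    have hai : a ^ i ≠ 1 := fun e => by
      have := Nat.le_of_dvd (Nat.pos_of_ne_zero hi0) (ha ▸ orderOf_dvd_of_pow_eq_one e)
      have := Finset.mem_range.1 hi
      omega
    have e : ∀ j, (a ^ j * b) ^ i • w = (a ^ i) ^ j • (b ^ i • w) := by
      intro j
      rw [(hab.pow_left j).mul_pow, ← pow_mul, ← pow_mul, mul_comm j i, mul_smul]
    simp only [e]
    exact kill _ (pow_mem hma i) hai (by rw [← pow_mul, mul_comm, pow_mul, ha', one_pow]) _

/-- No nontrivial abelian normal subgroup. -/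
theorem EP.eq_bot_of_comm [Finite H] [Finite V] (he : EP H V) (A : Subgroup H) (hA : A.Normal)
    (hAc : ∀ x ∈ A, ∀ y ∈ A, x * y = y * x) : A = ⊥ := by
  by_contra hne
  have := he.faithful
  obtain ⟨r, hr, hrd⟩ : ∃ r : ℕ, r.Prime ∧ r ∣ Nat.card A :=
    Nat.exists_prime_and_dvd fun h => hne (Subgroup.card_eq_one.1 h)
  have : Fact r.Prime := ⟨hr⟩
  obtain ⟨a0, ha0⟩ := exists_prime_orderOf_dvd_card' r hrd
  -- the elements of exponent `r` in `A`
  let E : Subgroup H :=
    { carrier := {x | x ∈ A ∧ x ^ r = 1}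
      one_mem' := ⟨A.one_mem, one_pow r⟩
      mul_mem' := fun {x y} hx hy => ⟨A.mul_mem hx.1 hy.1, by
        rw [(show Commute x y from hAc x hx.1 y hy.1).mul_pow, hx.2, hy.2, one_mul]⟩
      inv_mem' := fun {x} hx => ⟨A.inv_mem hx.1, by rw [inv_pow, hx.2, inv_one]⟩ }
  have hEn : E.Normal := ⟨fun x hx g => ⟨hA.conj_mem x hx.1 g, by
    rw [conj_pow, hx.2, mul_one, mul_inv_cancel]⟩⟩
  have hEc : ∀ x ∈ E, ∀ y ∈ E, x * y = y * x := fun x hx y hy => hAc x hx.1 y hy.1
  have haE : (a0 : H) ∈ E := ⟨a0.2, by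
    rw [← ha0, ← Subgroup.orderOf_coe, pow_orderOf_eq_one]⟩
  have ha : orderOf (a0 : H) = r := by rw [Subgroup.orderOf_coe, ha0]
  set a : H := (a0 : H)
  have htop : ∀ v : V, v ≠ 1 → E ⊔ stabilizer H v = ⊤ := by
    intro v hv
    by_contra h
    have hle : E ≤ stabilizer H v := by
      by_contra hE
      exact h ((he.coatom v hv).2 _ (lt_of_le_of_ne le_sup_right
        fun e => hE (le_sup_left.trans e.ge)))
    have hbot := he.eq_bot_of_fix E hEn hv hle
    rw [hbot, Subgroup.mem_bot] at haE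
    rw [haE, orderOf_one] at ha
    exact hr.one_lt.ne ha
  have hsemi : ∀ x ∈ E, x ≠ 1 → ∀ v : V, x • v = v → v = 1 := by
    intro x hx hx1 v hxv
    by_contra hv
    have hI : (E ⊓ stabilizer H v).Normal := by
      rw [← Subgroup.normalizer_eq_top_iff, eq_top_iff, ← htop v hv, sup_le_iff]
      refine ⟨fun e he' => Subgroup.mem_normalizer_iff.2 fun y => ?_,
        fun c hc => Subgroup.mem_normalizer_iff.2 fun y => ?_⟩
      · simp only [SetLike.mem_coe, Subgroup.mem_inf]
        constructor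
        · rintro ⟨h1, h2⟩
          rw [hEc e he' y h1, mul_inv_cancel_right]
          exact ⟨h1, h2⟩
        · rintro ⟨h1, h2⟩
          have hy : y ∈ E := by
            have := hEn.conj_mem _ h1 e⁻¹
            simpa [mul_assoc] using this
          rw [hEc e he' y hy, mul_inv_cancel_right] at h2
          exact ⟨hy, h2⟩
      · simp only [SetLike.mem_coe, Subgroup.mem_inf, mem_stab]
        have hci : c⁻¹ • v = v := inv_smul_eq_iff.2 (mem_stab.1 hc).symm
        constructor
        · rintro ⟨h1, h2⟩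
          exact ⟨hEn.conj_mem y h1 c, by rw [mul_smul, mul_smul, hci, h2, mem_stab.1 hc]⟩
        · rintro ⟨h1, h2⟩
          refine ⟨by simpa [mul_assoc] using hEn.conj_mem _ h1 c⁻¹, ?_⟩
          rw [mul_smul, mul_smul, hci] at h2
          rw [← inv_smul_smul c (y • v), h2, hci]
    have hbot := he.eq_bot_of_fix _ hI hv inf_le_right
    exact hx1 (Subgroup.mem_bot.1 (hbot ▸ ⟨hx, hxv⟩))
  -- `E` is cyclic of order `r`
  have : Nontrivial V := Finite.one_lt_card_iff_nontrivial.1
    (lt_of_lt_of_le one_lt_two (Nat.le_of_dvd Nat.card_pos he.two_dvd))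
  obtain ⟨v, hv⟩ := exists_ne (1 : V)
  have hE : E = Subgroup.zpowers a := by
    refine le_antisymm (fun b hb => ?_) (by rw [Subgroup.zpowers_le]; exact haE)
    by_contra hb'
    have hw := pow_eq_one_of_pair (V := V) (hEc a haE b hb) hr ha hb.2 hb'
      (fun x hx => hsemi x (by
        refine Subgroup.closure_le _ |>.2 ?_ hx
        rintro z (rfl | rfl) <;> assumption)) v
    have h2 : orderOf v = 2 := orderOf_eq_prime (by rw [pow_two, he.sq_eq_one]) hv
    have hr2 : r = 2 := ((Nat.prime_dvd_prime_iff_eq Nat.prime_two hr).1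
      (h2 ▸ orderOf_dvd_of_pow_eq_one hw)).symm
    obtain ⟨w, hw1, hw2⟩ := he.exists_fixed (t := a) (by rw [← pow_two, ← hr2]; exact haE.2)
    exact hw1 (hsemi a haE (fun e => by rw [e, orderOf_one] at ha; exact hr.one_lt.ne ha) w hw2)
  -- hence the stabiliser is abelian and the group is soluble
  have hC : ∀ c ∈ stabilizer H v, ∀ d ∈ stabilizer H v, c * d = d * c := by
    intro c hc d hd
    have key : ∀ z : H, ∃ k : ℤ, z * a * z⁻¹ = a ^ k := fun z => by
      have := hEn.conj_mem a haE z
      rw [hE, Subgroup.mem_zpowers_iff] at this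
      obtain ⟨k, hk⟩ := this
      exact ⟨k, hk.symm⟩
    obtain ⟨k, hk⟩ := key c
    obtain ⟨l, hl⟩ := key d
    have hcomm : (d * c)⁻¹ * (c * d) * a = a * ((d * c)⁻¹ * (c * d)) := by
      have e1 : c * d * a * (c * d)⁻¹ = a ^ (k * l) := by
        calc c * d * a * (c * d)⁻¹ = c * (d * a * d⁻¹) * c⁻¹ := by group
          _ = (c * a * c⁻¹) ^ l := by rw [hl, conj_zpow]
          _ = a ^ (k * l) := by rw [hk, zpow_mul]
      have e2 : d * c * a * (d * c)⁻¹ = a ^ (k * l) := by
        calc d * c * a * (d * c)⁻¹ = d * (c * a * c⁻¹) * d⁻¹ := by group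
          _ = (d * a * d⁻¹) ^ k := by rw [hk, conj_zpow]
          _ = a ^ (k * l) := by rw [hl, ← zpow_mul, mul_comm]
      calc (d * c)⁻¹ * (c * d) * a = (d * c)⁻¹ * (c * d * a * (c * d)⁻¹) * (c * d) := by group
        _ = (d * c)⁻¹ * (d * c * a * (d * c)⁻¹) * (c * d) := by rw [e1, e2]
        _ = a * ((d * c)⁻¹ * (c * d)) := by group
    set z := (d * c)⁻¹ * (c * d) with hz
    have hzC : z ∈ stabilizer H v := mul_mem (inv_mem (mul_mem hd hc)) (mul_mem hc hd)
    let K : Subgroup H := stabilizer H v ⊓ Subgroup.centralizer (E : Set H)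
    have hK : K.Normal := by
      rw [← Subgroup.normalizer_eq_top_iff, eq_top_iff, ← htop v hv, sup_le_iff]
      refine ⟨fun e he' => Subgroup.mem_normalizer_iff.2 fun y => ?_, fun e he' => ?_⟩
      · constructor
        · intro hy
          rw [show e * y * e⁻¹ = y by rw [hy.2 e he', mul_inv_cancel_right]]
          exact hy
        · intro hy
          have := hy.2 e he'
          have h3 : e * y * e⁻¹ = y := by
            rw [show e * y * e⁻¹ * e = e * y by group] at this
            exact mul_left_cancel this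
          rwa [h3] at hy
      · have h1 : e ∈ Subgroup.normalizer (stabilizer H v : Set H) := Subgroup.le_normalizer he'
        rw [Subgroup.mem_normalizer_iff] at h1 ⊢
        intro y
        have hCn : (Subgroup.centralizer (E : Set H)).Normal := by
          refine ⟨fun w hw g u hu => ?_⟩
          have h2 := hw (g⁻¹ * u * g) (by simpa using hEn.conj_mem u hu g⁻¹)
          calc u * (g * w * g⁻¹) = g * (g⁻¹ * u * g * w) * g⁻¹ := by group
            _ = g * (w * (g⁻¹ * u * g)) * g⁻¹ := by rw [h2]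
            _ = g * w * g⁻¹ * u := by group
        simp only [K, SetLike.mem_coe, Subgroup.mem_inf] at *
        rw [← h1 y]
        exact and_congr_right fun _ => ⟨fun h2 => hCn.conj_mem y h2 e,
          fun h2 => by simpa [mul_assoc] using hCn.conj_mem _ h2 e⁻¹⟩
    have hbot := he.eq_bot_of_fix K hK hv inf_le_left
    have hzK : z ∈ K := ⟨hzC, fun u hu => by
      rw [hE] at hu
      obtain ⟨j, rfl⟩ := Subgroup.mem_zpowers_iff.1 hu
      exact ((show Commute z a from hcomm).zpow_right j).eq.symm⟩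
    rw [hbot, Subgroup.mem_bot, hz, inv_mul_eq_one] at hzK
    exact hzK.symm
  refine he.nsol ?_
  have hEs : Group.IsSolvable E := isSolvable_of_comm fun x y => Subtype.ext (hEc _ x.2 _ y.2)
  have hQs : Group.IsSolvable (H ⧸ E) := by
    refine isSolvable_of_comm fun x y => ?_
    obtain ⟨x, rfl⟩ := QuotientGroup.mk_surjective x
    obtain ⟨y, rfl⟩ := QuotientGroup.mk_surjective y
    have hmem : ∀ z : H, ∃ e ∈ E, ∃ c ∈ stabilizer H v, e * c = z := by
      intro z
      have : z ∈ ((E ⊔ stabilizer H v : Subgroup H) : Set H) := by rw [htop v hv]; trivial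
      rw [Subgroup.normal_mul] at this
      exact this
    obtain ⟨e, he', c, hc, rfl⟩ := hmem x
    obtain ⟨f, hf, d, hd, rfl⟩ := hmem y
    rw [← QuotientGroup.mk'_apply, ← QuotientGroup.mk'_apply, map_mul, map_mul,
      show QuotientGroup.mk' E e = 1 from (QuotientGroup.eq_one_iff e).2 he',
      show QuotientGroup.mk' E f = 1 from (QuotientGroup.eq_one_iff f).2 hf, one_mul, one_mul,
      ← map_mul, ← map_mul, hC c hc d hd]
  exact Group.isSolvable_iff_subgroup_quotient (H := E) |>.2 ⟨hEs, hQs⟩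

end Cfsg.Agent.H80.ExtPrim
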